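import Cfsg.Agent.Lib.QuadClass.Basic

/-! Witt index of the standard forms; plus and minus forms are the two classes in even dimension. -/
set_option autoImplicit false

namespace CfsgLib.QuadClass
open Module CfsgLib.Orth.Hyperbolic CfsgLib.Orth.Binary CfsgLib.Orth.Models

variable {F : Type*} [Field F] {V : Type*} [AddCommGroup V] [Module F V]

theorem finrank_isotropic_le [FiniteDimensional F V] {Q : QuadraticForm F V} (hQ : Nondeg Q) (U : Submodule F V)
    (hU : ∀ u ∈ U, Q u = 0) : 2 * finrank F U ≤ finrank F V := by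
  have hinj : Function.Injective (QuadraticMap.polarBilin Q) := by
    rw [← LinearMap.ker_eq_bot, LinearMap.ker_eq_bot']
    intro u hu
    by_contra h
    obtain ⟨y, hy⟩ := hQ u h
    exact hy (LinearMap.congr_fun hu y)
  have hsurj : Function.Surjective (QuadraticMap.polarBilin Q) :=
    (LinearMap.injective_iff_surjective_of_finrank_eq_finrank Subspace.dual_finrank_eq.symm).1 hinj
  set L := U.dualRestrict ∘ₗ (QuadraticMap.polarBilin Q : V →ₗ[F] Module.Dual F V) with hL
  have hLs : Function.Surjective L := Subspace.dualRestrict_surjective.comp hsurj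
  have hker : U ≤ LinearMap.ker L := by
    intro u hu
    rw [LinearMap.mem_ker]
    refine LinearMap.ext fun w => ?_
    show QuadraticMap.polar Q u w.1 = 0
    rw [QuadraticMap.polar, hU _ (U.add_mem hu w.2), hU _ hu, hU _ w.2]
    simp
  have h := LinearMap.finrank_range_add_finrank_ker L
  rw [LinearMap.range_eq_top.2 hLs, finrank_top, Subspace.dual_finrank_eq] at h
  have := Submodule.finrank_mono hker
  omega

/-- the inclusion of the first half of the hyperbolic space -/
def halfE (F : Type*) [Field F] (m : ℕ) : (Fin m → F) →ₗ[F] (Fin m ⊕ Fin m → F) where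
  toFun x := Sum.elim x 0
  map_add' x y := by funext k; rcases k with k | k <;> simp
  map_smul' c x := by funext k; rcases k with k | k <;> simp

theorem plus_exists_singular (m : ℕ) :
    ∃ U : Submodule F (Fin m ⊕ Fin m → F), (∀ u ∈ U, plusQ F m u = 0) ∧ finrank F U = m := by
  refine ⟨LinearMap.range (halfE F m), ?_, ?_⟩
  · rintro u ⟨x, rfl⟩
    simp [plusQ_apply, Cfsg.quadFormPlus, halfE]
  · rw [LinearMap.finrank_range_of_inj, Module.finrank_fintype_fun_eq_card, Fintype.card_fin]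
    exact fun x y h => funext fun i => congrFun h (Sum.inl i)

theorem plus_singular_le (m : ℕ) (U : Submodule F (Fin m ⊕ Fin m → F)) (hU : ∀ u ∈ U, plusQ F m u = 0) :
    finrank F U ≤ m := by
  have := finrank_isotropic_le (nondeg_plus m) U hU
  simp only [Module.finrank_fintype_fun_eq_card, Fintype.card_sum, Fintype.card_fin] at this
  omega

theorem minus_singular_le {m : ℕ} {a b : F} (h : Aniso a b) (U : Submodule F ((Fin m ⊕ Fin m) ⊕ Fin 2 → F))
    (hU : ∀ u ∈ U, minusQ m a b u = 0) : finrank F U ≤ m := by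
  let pF : ((Fin m ⊕ Fin m) ⊕ Fin 2 → F) →ₗ[F] (Fin m → F) := LinearMap.funLeft F F (Sum.inl ∘ Sum.inr)
  let pE : ((Fin m ⊕ Fin m) ⊕ Fin 2 → F) →ₗ[F] (Fin m → F) := LinearMap.funLeft F F (Sum.inl ∘ Sum.inl)
  let W := U ⊓ LinearMap.ker pF
  have hWz : ∀ w ∈ W, ∀ i, w (Sum.inl (Sum.inr i)) = 0 := fun w hw i => congrFun (Submodule.mem_inf.1 hw).2 i
  have hWz' : ∀ w ∈ W, ∀ k, w (Sum.inr k) = 0 := by
    intro w hw
    have h0 := hU w (Submodule.mem_inf.1 hw).1
    rw [minusQ_apply, Cfsg.quadFormMinus] at h0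
    simp only [hWz w hw, mul_zero, Finset.sum_const_zero, zero_add] at h0
    obtain ⟨h1, h2⟩ := h _ _ h0
    intro k; fin_cases k
    exacts [h1, h2]
  have hle : (U.map pF).map (dotProductEquiv F (Fin m)).toLinearMap ≤ (W.map pE).dualAnnihilator := by
    rintro φ ⟨_, ⟨u, hu, rfl⟩, rfl⟩
    rw [Submodule.mem_dualAnnihilator]
    rintro _ ⟨w, hw, rfl⟩
    have h0 := hU _ (U.add_mem hu (Submodule.mem_inf.1 hw).1)
    have h1 := hU _ hu
    have h2 := hU _ (Submodule.mem_inf.1 hw).1
    rw [minusQ_apply, Cfsg.quadFormMinus] at h0 h1 h2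
    simp only [Pi.add_apply, hWz w hw, hWz' w hw, add_zero, add_mul, Finset.sum_add_distrib, mul_zero,
      Finset.sum_const_zero] at h0 h1 h2
    show ∑ i, pF u i * pE w i = 0
    simp only [pF, pE, LinearMap.funLeft_apply, Function.comp_apply]
    have h3 : ∑ i, u (Sum.inl (Sum.inr i)) * w (Sum.inl (Sum.inl i)) =
        ∑ i, w (Sum.inl (Sum.inl i)) * u (Sum.inl (Sum.inr i)) := Finset.sum_congr rfl fun i _ => mul_comm _ _
    rw [h3]
    linear_combination h0 - h1
  have hWinj : finrank F (W.map pE) = finrank F W := by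
    refine (LinearEquiv.finrank_eq (LinearEquiv.ofInjective (pE.domRestrict W) ?_ |>.trans (LinearEquiv.ofEq _ _ ?_))).symm
    · rintro ⟨x, hx⟩ ⟨y, hy⟩ hxy
      refine Subtype.ext (funext fun k => ?_)
      rcases k with (k | k) | k
      · exact congrFun hxy k
      · show x _ = y _; rw [hWz x hx, hWz y hy]
      · show x _ = y _; rw [hWz' x hx, hWz' y hy]
    · rw [LinearMap.range_domRestrict]
  have h1 := Submodule.finrank_mono hle
  rw [LinearEquiv.finrank_map_eq] at h1
  have h2 := Subspace.finrank_add_finrank_dualAnnihilator_eq (W.map pE)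
  rw [Module.finrank_fintype_fun_eq_card, Fintype.card_fin] at h2
  have h3 := LinearMap.finrank_range_add_finrank_ker (pF.domRestrict U)
  rw [LinearMap.range_domRestrict] at h3
  have h4 : finrank F (LinearMap.ker (pF.domRestrict U)) = finrank F W := by
    rw [LinearMap.ker_domRestrict, show (Submodule.comap U.subtype (LinearMap.ker pF)) = Submodule.comap U.subtype W by
          ext ⟨x, hx⟩; simp [W, hx]]
    exact (Submodule.comapSubtypeEquivOfLe (inf_le_left : W ≤ U)).finrank_eq
  omega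

theorem not_equiv_plus_minus (m : ℕ) {a b : F} (h : Aniso a b) : ¬ Equiv' (plusQ F (m + 1)) (minusQ m a b) := by
  rintro ⟨e, he⟩
  obtain ⟨U, hU, hd⟩ := plus_exists_singular (F := F) (m + 1)
  have := minus_singular_le h (U.map e.toLinearMap) (by rintro _ ⟨u, hu, rfl⟩; exact (he u).trans (hU u hu))
  rw [LinearEquiv.finrank_map_eq] at this
  omega

theorem aniso_of_noRoot {ζ : F} (hζ : ∀ t : F, t ^ 2 + t + ζ ≠ 0) : Aniso (1 : F) ζ := by
  intro z₁ z₂ h
  by_cases h2 : z₂ = 0
  · subst h2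
    exact ⟨pow_eq_zero_iff two_ne_zero |>.1 (by linear_combination h), rfl⟩
  · exact absurd (by field_simp; linear_combination h) (hζ (z₁ / z₂))

variable [Finite F]

theorem not_isSquare_disc {ζ : F} (hζ : ∀ t : F, t ^ 2 + t + ζ ≠ 0) (h2 : (2 : F) ≠ 0) :
    ¬ IsSquare (1 - 4 * ζ) := by
  rintro ⟨s, hs⟩
  refine hζ ((s - 1) / 2) ?_
  field_simp
  linear_combination -hs

theorem isSquare_mul_of_not [Fintype F] {a b : F} (ha : ¬ IsSquare a) (hb : ¬ IsSquare b) : IsSquare (a * b) := by
  classical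
  have ha0 : a ≠ 0 := fun h => ha (h ▸ IsSquare.zero)
  have hb0 : b ≠ 0 := fun h => hb (h ▸ IsSquare.zero)
  rw [← quadraticChar_one_iff_isSquare (mul_ne_zero ha0 hb0), map_mul,
    quadraticChar_neg_one_iff_not_isSquare.2 ha, quadraticChar_neg_one_iff_not_isSquare.2 hb]
  norm_num

theorem exists_artinSchreier {ζ ζ' : F} (h2 : (2 : F) = 0) (hζ : ∀ t : F, t ^ 2 + t + ζ ≠ 0)
    (hζ' : ∀ t : F, t ^ 2 + t + ζ' ≠ 0) : ∃ r : F, r ^ 2 + r = ζ + ζ' := by
  haveI := Fintype.ofFinite F
  classical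
  let φ : F →+ F := AddMonoidHom.mk' (fun r => r ^ 2 + r) (fun x y => by linear_combination (x * y) * h2)
  have hker : Nat.card φ.ker = 2 := by
    rw [Nat.card_eq_two_iff' (0 : φ.ker)]
    refine ⟨⟨1, show (1 : F) ^ 2 + 1 = 0 by linear_combination h2⟩, ?_, ?_⟩
    · exact fun h => one_ne_zero (congrArg Subtype.val h)
    · rintro ⟨x, hx⟩ hne
      have hx' : x * (x + 1) = 0 := by
        have : x ^ 2 + x = 0 := hx
        linear_combination this
      rcases mul_eq_zero.1 hx' with h | h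
      · exact absurd (Subtype.ext h) hne
      · exact Subtype.ext (show x = 1 by linear_combination h - h2)
  have hidx : φ.range.index = 2 := by
    have h := AddSubgroup.card_eq_card_quotient_mul_card_addSubgroup φ.ker
    rw [Nat.card_congr (QuotientAddGroup.quotientKerEquivRange φ).toEquiv, hker] at h
    have h' := φ.range.card_mul_index
    have : 0 < Nat.card φ.range := Nat.card_pos
    rw [h] at h'
    exact Nat.eq_of_mul_eq_mul_left this h'
  have hn : ∀ z : F, (∀ t : F, t ^ 2 + t + z ≠ 0) → z ∉ φ.range := by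
    rintro z hz ⟨r, hr⟩
    refine hz r ?_
    have hr' : r ^ 2 + r = z := hr
    linear_combination hr' + z * h2
  obtain ⟨r, hr⟩ := (AddSubgroup.add_mem_iff_of_index_two hidx).2 (iff_of_false (hn ζ hζ) (hn ζ' hζ'))
  exact ⟨r, hr⟩

theorem bin_equiv {ζ ζ' : F} (hζ : ∀ t : F, t ^ 2 + t + ζ ≠ 0) (hζ' : ∀ t : F, t ^ 2 + t + ζ' ≠ 0) :
    Equiv' (bin 1 ζ) (bin 1 ζ') := by
  haveI := Fintype.ofFinite F
  obtain ⟨r, l, hl, h1, h0⟩ : ∃ r l : F, l ≠ 0 ∧ 2 * r + l = 1 ∧ r ^ 2 + r * l + ζ' * l ^ 2 = ζ := by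
    by_cases h2 : (2 : F) = 0
    · obtain ⟨r, hr⟩ := exists_artinSchreier h2 hζ hζ'
      exact ⟨r, 1, one_ne_zero, by linear_combination r * h2, by linear_combination hr + ζ' * h2⟩
    · have hn := not_isSquare_disc hζ h2
      have hn' := not_isSquare_disc hζ' h2
      obtain ⟨s, hs⟩ := isSquare_mul_of_not hn hn'
      have hd : (1 - 4 * ζ') ≠ 0 := fun h => hn' (h ▸ IsSquare.zero)
      have hd0 : (1 - 4 * ζ) ≠ 0 := fun h => hn (h ▸ IsSquare.zero)
      refine ⟨(1 - s / (1 - 4 * ζ')) / 2, s / (1 - 4 * ζ'), div_ne_zero ?_ hd, by field_simp; ring, ?_⟩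
      · rintro rfl
        exact mul_ne_zero hd0 hd (by linear_combination hs)
      · field_simp
        linear_combination -(4 * ζ' - 1) * hs
  let L : (Fin 2 → F) →ₗ[F] (Fin 2 → F) :=
    ((LinearMap.proj 0 : (Fin 2 → F) →ₗ[F] F) + r • LinearMap.proj 1).smulRight (Pi.single 0 1) + (l • (LinearMap.proj 1 : (Fin 2 → F) →ₗ[F] F)).smulRight (Pi.single 1 1)
  have hL0 : ∀ v, L v 0 = v 0 + r * v 1 := fun v => by simp [L]
  have hL1 : ∀ v, L v 1 = l * v 1 := fun v => by simp [L]
  have hinj : Function.Injective L := by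
    rw [← LinearMap.ker_eq_bot, LinearMap.ker_eq_bot']
    intro v hv
    have e1 := congrFun hv 1
    rw [hL1] at e1
    have h1' : v 1 = 0 := (mul_eq_zero.1 e1).resolve_left hl
    have e0 := congrFun hv 0
    rw [hL0, h1', mul_zero, add_zero] at e0
    funext i; fin_cases i
    exacts [e0, h1']
  refine ⟨LinearEquiv.ofInjectiveEndo L hinj, fun v => ?_⟩
  show bin 1 ζ' (L v) = _
  rw [bin_apply, bin_apply, hL0, hL1]
  linear_combination (v 0 * v 1) * h1 + (v 1) ^ 2 * h0

theorem minus_congr_bin (m : ℕ) {a b a' b' : F} (h : Equiv' (bin a b) (bin a' b')) :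
    Equiv' (minusQ m a b) (minusQ m a' b') := by
  induction m with
  | zero =>
    exact Equiv'.trans ⟨minusE0 F, minusE0_spec a b⟩ (h.trans (Equiv'.symm ⟨minusE0 F, minusE0_spec a' b'⟩))
  | succ m ih => exact (equiv_ext_minus m a b).symm.trans ((equiv_ext ih).trans (equiv_ext_minus m a' b'))

theorem minus_unique (m : ℕ) {a b a' b' : F} (h : Aniso a b) (h' : Aniso a' b') :
    Equiv' (minusQ m a b) (minusQ m a' b') := by
  haveI := Fintype.ofFinite F
  have key : ∀ {a b : F}, Aniso a b → ∃ ζ : F, (∀ t : F, t ^ 2 + t + ζ ≠ 0) ∧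
      Equiv' (minusQ m a b) (minusQ m 1 ζ) := by
    intro a b h
    rcases classify_even m (minusQ m a b) (nondeg_minus m h) (by simp; ring) with he | he
    · exact absurd he.symm (not_equiv_plus_minus m h)
    · exact he
  obtain ⟨ζ, hζ, he⟩ := key h
  obtain ⟨ζ', hζ', he'⟩ := key h'
  exact he.trans ((minus_congr_bin m (bin_equiv hζ hζ')).trans he'.symm)

theorem has_max_singular_iff [FiniteDimensional F V] (m : ℕ) {Q : QuadraticForm F V} (hQ : Nondeg Q)
    (h : finrank F V = 2 * (m + 1)) :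
    Equiv' Q (plusQ F (m + 1)) ↔ ∃ U : Submodule F V, (∀ u ∈ U, Q u = 0) ∧ finrank F U = m + 1 := by
  constructor
  · intro he
    obtain ⟨e, he⟩ := he.symm
    obtain ⟨U, hU, hd⟩ := plus_exists_singular (F := F) (m + 1)
    refine ⟨U.map e.toLinearMap, ?_, (LinearEquiv.finrank_map_eq e U).trans hd⟩
    rintro _ ⟨u, hu, rfl⟩
    exact (he u).trans (hU u hu)
  · rintro ⟨U, hU, hd⟩
    refine (classify_even m Q hQ h).resolve_right ?_
    rintro ⟨ζ, hζ, e, he⟩
    have := minus_singular_le (aniso_of_noRoot hζ) (U.map e.toLinearMap) (by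
      rintro _ ⟨u, hu, rfl⟩; exact (he u).trans (hU u hu))
    rw [LinearEquiv.finrank_map_eq] at this
    omega

/-- two non-degenerate forms of the same even dimension with the same kind of singular subspaces are isometric -/
theorem equiv_of_singular_iff {W : Type*} [AddCommGroup W] [Module F W] [FiniteDimensional F V]
    [FiniteDimensional F W] (m : ℕ) {Q : QuadraticForm F V} {R : QuadraticForm F W} (hQ : Nondeg Q) (hR : Nondeg R)
    (h : finrank F V = 2 * (m + 1)) (h' : finrank F W = 2 * (m + 1))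
    (hiff : Equiv' Q (plusQ F (m + 1)) ↔ Equiv' R (plusQ F (m + 1))) : Equiv' Q R := by
  by_cases hp : Equiv' Q (plusQ F (m + 1))
  · exact hp.trans (hiff.1 hp).symm
  · obtain ⟨ζ, hζ, he⟩ := (classify_even m Q hQ h).resolve_left hp
    obtain ⟨ζ', hζ', he'⟩ := (classify_even m R hR h').resolve_left (fun h => hp (hiff.2 h))
    exact he.trans ((minus_unique m (aniso_of_noRoot hζ) (aniso_of_noRoot hζ')).trans he'.symm)

end CfsgLib.QuadClass
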