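import Mathlib
import Cfsg.Prelude.Def_Classical
import Cfsg.Agent.Lib.Orth.Models

/-! Classification of non-degenerate quadratic forms over a finite field. -/
set_option autoImplicit false

namespace CfsgLib.QuadClass
open Module CfsgLib.Orth.Hyperbolic CfsgLib.Orth.Binary CfsgLib.Orth.Models

variable {F : Type*} [Field F] {V : Type*} [AddCommGroup V] [Module F V]

/-- there is a linear isomorphism carrying one form to the other -/
def Equiv' {W : Type*} [AddCommGroup W] [Module F W] (Q : QuadraticForm F V) (R : QuadraticForm F W) : Prop :=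
  ∃ e : V ≃ₗ[F] W, ∀ v, R (e v) = Q v

theorem Equiv'.symm {W : Type*} [AddCommGroup W] [Module F W] {Q : QuadraticForm F V} {R : QuadraticForm F W}
    (h : Equiv' Q R) : Equiv' R Q := by
  obtain ⟨e, he⟩ := h
  exact ⟨e.symm, fun w => by rw [← he, e.apply_symm_apply]⟩

theorem Equiv'.trans {W X : Type*} [AddCommGroup W] [Module F W] [AddCommGroup X] [Module F X]
    {Q : QuadraticForm F V} {R : QuadraticForm F W} {S : QuadraticForm F X}
    (h : Equiv' Q R) (h' : Equiv' R S) : Equiv' Q S := by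
  obtain ⟨e, he⟩ := h
  obtain ⟨e', he'⟩ := h'
  exact ⟨e.trans e', fun v => (he' _).trans (he v)⟩

theorem nondeg_of (Q : QuadraticForm F V) (hQ : (QuadraticMap.polarBilin Q).Nondegenerate) : Nondeg Q := fun u hu => by
  by_contra h
  push_neg at h
  exact hu (hQ.1 u fun y => h y)

theorem polar_ne_zero_of_two {Q : QuadraticForm F V} (h2 : (2 : F) ≠ 0) {v : V} (hv : Q v ≠ 0) :
    QuadraticMap.polar Q v v ≠ 0 := by
  rw [polar_self', ← two_mul]
  exact mul_ne_zero h2 hv

theorem isSquare_of_two_eq_zero [Finite F] (h2 : (2 : F) = 0) (a : F) : IsSquare a := by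
  refine FiniteField.isSquare_of_char_two ?_ a
  haveI : CharP F 2 := CharTwo.of_one_ne_zero_of_two_eq_zero one_ne_zero h2
  exact (ringChar.eq F 2).symm ▸ rfl

/-- a sum of two nonzero scalar multiples of squares represents everything -/
theorem exists_sq_add_sq [Fintype F] (h2 : (2 : F) ≠ 0) {a b : F} (ha : a ≠ 0) (hb : b ≠ 0) (c : F) :
    ∃ x y : F, a * x ^ 2 + b * y ^ 2 = c := by
  open Polynomial in
  obtain ⟨x, y, hxy⟩ := FiniteField.exists_root_sum_quadratic (f := C a * X ^ 2) (g := C b * X ^ 2 - C c)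
    (degree_C_mul_X_pow 2 ha)
    (by
      rw [degree_sub_eq_left_of_degree_lt (by
        rw [degree_C_mul_X_pow 2 hb]; exact degree_C_le.trans_lt (by norm_num))]
      exact degree_C_mul_X_pow 2 hb)
    (by
      rw [← Nat.not_even_iff, Nat.even_iff, ← FiniteField.even_card_iff_char_two]
      intro h
      haveI := ringChar.charP F
      rw [h] at *
      exact h2 (CharP.cast_eq_zero F 2))
  simp only [Polynomial.eval_mul, Polynomial.eval_C, Polynomial.eval_pow, Polynomial.eval_X, Polynomial.eval_sub] at hxy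
  exact ⟨x, y, by linear_combination hxy⟩

variable [FiniteDimensional F V]

theorem finrank_ker_polar {Q : QuadraticForm F V} (v : V) :
    finrank F V ≤ finrank F (LinearMap.ker (QuadraticMap.polarBilin Q v)) + 1 := by
  have h := LinearMap.finrank_range_add_finrank_ker (QuadraticMap.polarBilin Q v)
  have := (LinearMap.range (QuadraticMap.polarBilin Q v)).finrank_le
  rw [Module.finrank_self] at this
  omega

variable [Finite F]

theorem exists_isotropic (Q : QuadraticForm F V) (h : 3 ≤ finrank F V) : ∃ u, u ≠ 0 ∧ Q u = 0 := by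
  haveI := Fintype.ofFinite F
  by_contra hno
  push_neg at hno
  haveI := Module.nontrivial_of_finrank_pos (R := F) (by omega : 0 < finrank F V)
  obtain ⟨v1, hv1⟩ := exists_ne (0 : V)
  set K1 := LinearMap.ker (QuadraticMap.polarBilin Q v1) with hK1d
  have hK1 : 2 ≤ finrank F K1 := by
    have := finrank_ker_polar (Q := Q) v1
    rw [hK1d]; omega
  obtain ⟨v2, hv2, hv2'⟩ : ∃ v2 ∈ K1, v2 ∉ F ∙ v1 := by
    by_contra hall
    push_neg at hall
    have := Submodule.finrank_mono (s := K1) (t := F ∙ v1) hall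
    rw [finrank_span_singleton hv1] at this
    omega
  have hv2o : QuadraticMap.polar Q v1 v2 = 0 := hv2
  have hv20 : v2 ≠ 0 := fun h0 => hv2' (h0 ▸ Submodule.zero_mem _)
  by_cases h2 : (2 : F) = 0
  · obtain ⟨s, hs⟩ := isSquare_of_two_eq_zero h2 (-(Q v2) / Q v1)
    refine hno (s • v1 + v2) (fun h0 => hv2' ?_) ?_
    · rw [Submodule.mem_span_singleton]
      exact ⟨-s, by rw [neg_smul, eq_neg_of_add_eq_zero_right h0]⟩
    · rw [Qadd, Qsmul, ← hs, QuadraticMap.polar_smul_left, hv2o, smul_zero, add_zero,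
        div_mul_cancel₀ _ (hno v1 hv1), neg_add_cancel]
  · obtain ⟨v3, hv3, hv30⟩ : ∃ v3 ∈ K1 ⊓ LinearMap.ker (QuadraticMap.polarBilin Q v2), v3 ≠ 0 := by
      apply Submodule.exists_mem_ne_zero_of_ne_bot
      intro hbot
      have := Submodule.finrank_sup_add_finrank_inf_eq K1 (LinearMap.ker (QuadraticMap.polarBilin Q v2))
      rw [hbot, finrank_bot] at this
      have := (K1 ⊔ LinearMap.ker (QuadraticMap.polarBilin Q v2)).finrank_le
      have := finrank_ker_polar (Q := Q) v2
      omega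
    obtain ⟨h13, h23⟩ := Submodule.mem_inf.1 hv3
    have h13' : QuadraticMap.polar Q v1 v3 = 0 := h13
    have h23' : QuadraticMap.polar Q v2 v3 = 0 := h23
    obtain ⟨x, y, hxy⟩ := exists_sq_add_sq h2 (hno v1 hv1) (hno v2 hv20) (-(Q v3))
    refine hno (x • v1 + y • v2 + v3) (fun h0 => ?_) ?_
    · have := congrArg (fun w => QuadraticMap.polar Q w v3) h0
      simp only [QuadraticMap.polar_add_left, QuadraticMap.polar_smul_left, h13', h23', smul_zero, zero_add,
        QuadraticMap.polar_zero_left] at this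
      exact polar_ne_zero_of_two h2 (hno v3 hv30) this
    · rw [Qadd, Qadd, Qsmul, Qsmul, QuadraticMap.polar_add_left, QuadraticMap.polar_smul_left,
        QuadraticMap.polar_smul_left, QuadraticMap.polar_smul_left, QuadraticMap.polar_smul_right, hv2o, h13', h23']
      simp only [smul_eq_mul, mul_zero, add_zero]
      linear_combination hxy

omit [FiniteDimensional F V] [Finite F] in
theorem exists_partner {Q : QuadraticForm F V} (hQ : Nondeg Q) {u : V} (hu0 : u ≠ 0) (hu : Q u = 0) :
    ∃ v, Q v = 0 ∧ QuadraticMap.polar Q u v = 1 := by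
  obtain ⟨y, hy⟩ := hQ u hu0
  obtain ⟨z, h1⟩ : ∃ z, QuadraticMap.polar Q u z = 1 :=
    ⟨(QuadraticMap.polar Q u y)⁻¹ • y, by rw [QuadraticMap.polar_smul_right, smul_eq_mul, inv_mul_cancel₀ hy]⟩
  refine ⟨z - Q z • u, ?_, ?_⟩
  · rw [Qsub, Qsmul, hu, QuadraticMap.polar_smul_right, QuadraticMap.polar_comm _ z u, h1, smul_eq_mul]; ring
  · rw [QuadraticMap.polar_sub_right, QuadraticMap.polar_smul_right, polar_self', hu, h1, add_zero, smul_zero, sub_zero]

omit [Finite F] in
/-- an isotropic vector splits off a hyperbolic plane -/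
theorem exists_split (Q : QuadraticForm F V) (hQ : Nondeg Q) {u : V} (hu0 : u ≠ 0) (hu : Q u = 0) :
    ∃ (W : Submodule F V), Nondeg (Q.comp W.subtype) ∧ finrank F W + 2 = finrank F V ∧
      Equiv' Q (ext (Q.comp W.subtype)) := by
  obtain ⟨v, hv, huv⟩ := exists_partner hQ hu0 hu
  set W := LinearMap.ker (QuadraticMap.polarBilin Q u) ⊓ LinearMap.ker (QuadraticMap.polarBilin Q v) with hW
  have hvu : QuadraticMap.polar Q v u = 1 := by rw [QuadraticMap.polar_comm, huv]
  have memW : ∀ w : V, w ∈ W ↔ QuadraticMap.polar Q u w = 0 ∧ QuadraticMap.polar Q v w = 0 := fun w => Iff.rfl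
  have hmem : ∀ x : V, x - QuadraticMap.polar Q v x • u - QuadraticMap.polar Q u x • v ∈ W := by
    intro x
    rw [memW]
    constructor <;>
      simp only [QuadraticMap.polar_sub_right, QuadraticMap.polar_smul_right, polar_self', hu, hv, huv, hvu, smul_eq_mul] <;>
      ring
  let e : V ≃ₗ[F] (F × F) × W :=
    { toFun := fun x => ((QuadraticMap.polar Q v x, QuadraticMap.polar Q u x), ⟨_, hmem x⟩)
      invFun := fun p => p.1.1 • u + p.1.2 • v + p.2.1
      map_add' := fun x y => by
        ext <;> simp [QuadraticMap.polar_add_right, add_smul]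
        abel
      map_smul' := fun c x => by
        ext <;> simp [QuadraticMap.polar_smul_right, smul_sub, smul_smul]
      left_inv := fun x => by
        show QuadraticMap.polar Q v x • u + QuadraticMap.polar Q u x • v + (x - _ - _) = x
        abel
      right_inv := fun p => by
        obtain ⟨⟨a, b⟩, ⟨w, hw⟩⟩ := p
        obtain ⟨hw1, hw2⟩ := (memW w).1 hw
        have ha : QuadraticMap.polar Q v (a • u + b • v + w) = a := by
          simp only [QuadraticMap.polar_add_right, QuadraticMap.polar_smul_right, polar_self', hv, hvu, hw2, smul_eq_mul]; ring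
        have hb : QuadraticMap.polar Q u (a • u + b • v + w) = b := by
          simp only [QuadraticMap.polar_add_right, QuadraticMap.polar_smul_right, polar_self', hu, huv, hw1, smul_eq_mul]; ring
        refine Prod.ext (Prod.ext ha hb) (Subtype.ext ?_)
        show a • u + b • v + w - QuadraticMap.polar Q v (a • u + b • v + w) • u -
          QuadraticMap.polar Q u (a • u + b • v + w) • v = w
        rw [ha, hb]; abel }
  have he : ∀ p, Q (e.symm p) = ext (Q.comp W.subtype) p := by
    rintro ⟨⟨a, b⟩, ⟨w, hw⟩⟩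
    obtain ⟨hw1, hw2⟩ := (memW w).1 hw
    show Q (a • u + b • v + w) = _
    rw [ext_apply]
    show Q (a • u + b • v + w) = a * b + Q w
    rw [Qadd, Qadd, Qsmul, Qsmul, hu, hv, QuadraticMap.polar_add_left, QuadraticMap.polar_smul_left,
      QuadraticMap.polar_smul_left, QuadraticMap.polar_smul_left, QuadraticMap.polar_smul_right, huv, hw1, hw2]
    simp only [smul_eq_mul]
    ring
  refine ⟨W, ?_, ?_, e, fun x => by rw [← he, e.symm_apply_apply]⟩
  · rintro ⟨w, hw⟩ hne
    obtain ⟨hw1, hw2⟩ := (memW w).1 hw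
    obtain ⟨y, hy⟩ := hQ w (fun h => hne (Subtype.ext h))
    refine ⟨⟨_, hmem y⟩, ?_⟩
    have : QuadraticMap.polar Q w (y - QuadraticMap.polar Q v y • u - QuadraticMap.polar Q u y • v) =
        QuadraticMap.polar Q w y := by
      rw [QuadraticMap.polar_sub_right, QuadraticMap.polar_sub_right, QuadraticMap.polar_smul_right,
        QuadraticMap.polar_smul_right, QuadraticMap.polar_comm _ w u, QuadraticMap.polar_comm _ w v, hw1, hw2,
        smul_zero, smul_zero, sub_zero, sub_zero]
    rw [← this] at hy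
    exact hy
  · have := e.finrank_eq
    rw [Module.finrank_prod, Module.finrank_prod, Module.finrank_self] at this
    omega

omit [FiniteDimensional F V] [Finite F] in
theorem equiv_ext {W : Type*} [AddCommGroup W] [Module F W] {Q : QuadraticForm F V} {R : QuadraticForm F W}
    (h : Equiv' Q R) : Equiv' (ext Q) (ext R) := by
  obtain ⟨e, he⟩ := h
  exact ⟨(LinearEquiv.refl F (F × F)).prodCongr e, fun p => by rw [ext_apply, ext_apply]; simp [he]⟩

omit [Finite F] in
theorem equiv_ext_plus (m : ℕ) : Equiv' (ext (plusQ F m)) (plusQ F (m + 1)) :=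
  Equiv'.symm ⟨plusE F m, plusE_spec m⟩

omit [Finite F] in
theorem equiv_ext_minus (m : ℕ) (a b : F) : Equiv' (ext (minusQ m a b)) (minusQ (m + 1) a b) :=
  Equiv'.symm ⟨minusE F m, minusE_spec m a b⟩

omit [Finite F] in
theorem equiv_zero {W : Type*} [AddCommGroup W] [Module F W] [FiniteDimensional F W] (Q : QuadraticForm F V)
    (R : QuadraticForm F W) (h : finrank F V = 0) (h' : finrank F W = 0) : Equiv' Q R := by
  haveI : Subsingleton V := Module.finrank_zero_iff.1 h
  exact ⟨LinearEquiv.ofFinrankEq V W (h.trans h'.symm),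
    fun v => by rw [Subsingleton.elim v 0, map_zero, QuadraticMap.map_zero, QuadraticMap.map_zero]⟩

/-- a form is anisotropic of dimension two: it is `x² + xy + ζ y²` -/
theorem equiv_binary (Q : QuadraticForm F V) (hQ : Nondeg Q) (h : finrank F V = 2)
    (hno : ∀ u, u ≠ 0 → Q u ≠ 0) : ∃ ζ : F, (∀ t : F, t ^ 2 + t + ζ ≠ 0) ∧ Equiv' Q (bin 1 ζ) := by
  haveI := Fintype.ofFinite F
  haveI := Module.nontrivial_of_finrank_pos (R := F) (by omega : 0 < finrank F V)
  obtain ⟨v1, hv1⟩ := exists_ne (0 : V)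
  obtain ⟨x, hx⟩ : ∃ x, Q x = 1 := by
    by_cases h2 : (2 : F) = 0
    · obtain ⟨s, hs⟩ := isSquare_of_two_eq_zero h2 (Q v1)⁻¹
      exact ⟨s • v1, by rw [Qsmul, ← hs, inv_mul_cancel₀ (hno v1 hv1)]⟩
    · obtain ⟨v2, hv2, hv20⟩ : ∃ v2 ∈ LinearMap.ker (QuadraticMap.polarBilin Q v1), v2 ≠ 0 := by
        apply Submodule.exists_mem_ne_zero_of_ne_bot
        intro hbot
        have := finrank_ker_polar (Q := Q) v1
        rw [hbot, finrank_bot] at this
        omega
      have ho : QuadraticMap.polar Q v1 v2 = 0 := hv2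
      obtain ⟨a, b, hab⟩ := exists_sq_add_sq h2 (hno v1 hv1) (hno v2 hv20) 1
      refine ⟨a • v1 + b • v2, ?_⟩
      rw [Qadd, Qsmul, Qsmul, QuadraticMap.polar_smul_left, QuadraticMap.polar_smul_right, ho]
      simp only [smul_eq_mul, mul_zero, add_zero]
      linear_combination hab
  have hx0 : x ≠ 0 := fun h0 => by rw [h0, QuadraticMap.map_zero] at hx; exact zero_ne_one hx
  obtain ⟨y, hy, hxy⟩ : ∃ y, y ∉ F ∙ x ∧ QuadraticMap.polar Q x y = 1 := by
    obtain ⟨y0, hy0⟩ := hQ x hx0
    obtain ⟨y, h1⟩ : ∃ y, QuadraticMap.polar Q x y = 1 :=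
      ⟨(QuadraticMap.polar Q x y0)⁻¹ • y0, by rw [QuadraticMap.polar_smul_right, smul_eq_mul, inv_mul_cancel₀ hy0]⟩
    by_cases hmem : y ∈ F ∙ x
    · obtain ⟨w, hw, hw0⟩ : ∃ w ∈ LinearMap.ker (QuadraticMap.polarBilin Q x), w ≠ 0 := by
        apply Submodule.exists_mem_ne_zero_of_ne_bot
        intro hbot
        have := finrank_ker_polar (Q := Q) x
        rw [hbot, finrank_bot] at this
        omega
      have hwo : QuadraticMap.polar Q x w = 0 := hw
      refine ⟨y + w, fun hm => ?_, by rw [QuadraticMap.polar_add_right, h1, hwo, add_zero]⟩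
      obtain ⟨c, hc⟩ := Submodule.mem_span_singleton.1 ((Submodule.add_mem_iff_right _ hmem).1 hm)
      obtain ⟨d, hd⟩ := Submodule.mem_span_singleton.1 hmem
      have hd' := h1
      rw [← hd, QuadraticMap.polar_smul_right, smul_eq_mul] at hd'
      rw [← hc, QuadraticMap.polar_smul_right, smul_eq_mul] at hwo
      rcases mul_eq_zero.1 hwo with h0 | h0
      · exact hw0 (by rw [← hc, h0, zero_smul])
      · rw [h0, mul_zero] at hd'; exact zero_ne_one hd'
    · exact ⟨y, hmem, h1⟩
  refine ⟨Q y, fun t ht => ?_, ?_⟩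
  · refine hno (t • x + y) (fun h0 => hy ?_) ?_
    · rw [Submodule.mem_span_singleton]
      exact ⟨-t, by rw [neg_smul, eq_neg_of_add_eq_zero_right h0]⟩
    · rw [Qadd, Qsmul, hx, QuadraticMap.polar_smul_left, hxy, smul_eq_mul]
      linear_combination ht
  · let L : (Fin 2 → F) →ₗ[F] V :=
      (LinearMap.proj 0).smulRight x + (LinearMap.proj 1).smulRight y
    have hL : ∀ v : Fin 2 → F, L v = v 0 • x + v 1 • y := fun v => rfl
    have hinj : Function.Injective L := by
      rw [← LinearMap.ker_eq_bot, LinearMap.ker_eq_bot']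
      intro v hv
      rw [hL] at hv
      have h1 : v 1 = 0 := by
        by_contra h1
        refine hy (Submodule.mem_span_singleton.2 ⟨-((v 1)⁻¹ * v 0), ?_⟩)
        rw [neg_smul, ← smul_smul, ← smul_neg, ← eq_neg_of_add_eq_zero_right hv, smul_smul, inv_mul_cancel₀ h1, one_smul]
      rw [h1, zero_smul, add_zero] at hv
      funext i
      fin_cases i
      · exact (smul_eq_zero.1 hv).resolve_right hx0
      · exact h1
    let e := LinearEquiv.ofInjectiveOfFinrankEq L hinj (by rw [h, Module.finrank_fintype_fun_eq_card, Fintype.card_fin])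
    refine Equiv'.symm ⟨e, fun v => ?_⟩
    show Q (L v) = _
    rw [hL, bin_apply, Qadd, Qsmul, Qsmul, hx, QuadraticMap.polar_smul_left, QuadraticMap.polar_smul_right, hxy]
    simp only [smul_eq_mul]
    ring

/-- the classification in even dimension -/
theorem classify_even (m : ℕ) : ∀ {V : Type*} [AddCommGroup V] [Module F V] [FiniteDimensional F V]
    (Q : QuadraticForm F V), Nondeg Q → finrank F V = 2 * (m + 1) →
    Equiv' Q (plusQ F (m + 1)) ∨
      ∃ ζ : F, (∀ t : F, t ^ 2 + t + ζ ≠ 0) ∧ Equiv' Q (minusQ m 1 ζ) := by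
  induction m with
  | zero =>
    intro V _ _ _ Q hQ hV
    by_cases hno : ∀ u, u ≠ 0 → Q u ≠ 0
    · obtain ⟨ζ, hζ, he⟩ := equiv_binary Q hQ hV hno
      exact Or.inr ⟨ζ, hζ, he.trans (Equiv'.symm ⟨minusE0 F, minusE0_spec 1 ζ⟩)⟩
    · push_neg at hno
      obtain ⟨u, hu0, hu⟩ := hno
      obtain ⟨W, -, hW, he⟩ := exists_split Q hQ hu0 hu
      refine Or.inl (he.trans ((equiv_ext ?_).trans (equiv_ext_plus 0)))
      exact equiv_zero _ _ (by omega) (by simp)
  | succ m ih =>
    intro V _ _ _ Q hQ hV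
    obtain ⟨u, hu0, hu⟩ := exists_isotropic Q (by omega)
    obtain ⟨W, hWn, hW, he⟩ := exists_split Q hQ hu0 hu
    rcases ih _ hWn (by omega) with h | ⟨ζ, hζ, h⟩
    · exact Or.inl (he.trans ((equiv_ext h).trans (equiv_ext_plus _)))
    · exact Or.inr ⟨ζ, hζ, he.trans ((equiv_ext h).trans (equiv_ext_minus _ _ _))⟩

/-- the odd form with leading coefficient `c` -/
def oddC (F : Type*) [Field F] (m : ℕ) (c : F) : QuadraticForm F (Unit ⊕ (Fin m ⊕ Fin m) → F) :=
  c • QuadraticMap.linMulLin (LinearMap.proj (Sum.inl ())) (LinearMap.proj (Sum.inl ())) +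
    ∑ i : Fin m, QuadraticMap.linMulLin (LinearMap.proj (Sum.inr (Sum.inl i))) (LinearMap.proj (Sum.inr (Sum.inr i)))

omit [Finite F] in
theorem oddC_apply (m : ℕ) (c : F) (v : Unit ⊕ (Fin m ⊕ Fin m) → F) :
    oddC F m c v = c * (v (Sum.inl ()) * v (Sum.inl ())) + ∑ i : Fin m, v (Sum.inr (Sum.inl i)) * v (Sum.inr (Sum.inr i)) := by
  simp [oddC, QuadraticMap.linMulLin_apply]

omit [Finite F] in
theorem equiv_ext_oddC (m : ℕ) (c : F) : Equiv' (ext (oddC F m c)) (oddC F (m + 1) c) := by
  refine Equiv'.symm ⟨oddE F m, fun v => ?_⟩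
  rw [ext_apply, oddC_apply, oddC_apply, Fin.sum_univ_succ]
  show v (Sum.inr (Sum.inl 0)) * v (Sum.inr (Sum.inr 0)) + (c * (v (Sum.inl ()) * v (Sum.inl ())) +
    ∑ i : Fin m, v (Sum.inr (Sum.inl i.succ)) * v (Sum.inr (Sum.inr i.succ))) = _
  ring

/-- the classification in odd dimension -/
theorem classify_odd (m : ℕ) : ∀ {V : Type*} [AddCommGroup V] [Module F V] [FiniteDimensional F V]
    (Q : QuadraticForm F V), Nondeg Q → finrank F V = 2 * m + 1 →
    (2 : F) ≠ 0 ∧ ∃ c : F, c ≠ 0 ∧ Equiv' Q (oddC F m c) := by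
  induction m with
  | zero =>
    intro V _ _ _ Q hQ hV
    obtain ⟨v, hv0, hv⟩ := finrank_eq_one_iff'.1 (show finrank F V = 1 by omega)
    obtain ⟨y, hy⟩ := hQ v hv0
    obtain ⟨a, rfl⟩ := hv y
    rw [QuadraticMap.polar_smul_right, polar_self', ← two_mul, smul_eq_mul] at hy
    have h2 : (2 : F) ≠ 0 := fun h => hy (by rw [h, zero_mul, mul_zero])
    have hc : Q v ≠ 0 := fun h => hy (by rw [h, mul_zero, mul_zero])
    refine ⟨h2, Q v, hc, Equiv'.symm ?_⟩
    let L : (Unit ⊕ (Fin 0 ⊕ Fin 0) → F) →ₗ[F] V := (LinearMap.proj (Sum.inl ())).smulRight v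
    have hinj : Function.Injective L := by
      rw [← LinearMap.ker_eq_bot, LinearMap.ker_eq_bot']
      intro w hw
      funext k
      rcases k with ⟨⟩ | (k | k)
      · exact (smul_eq_zero.1 hw).resolve_right hv0
      · exact k.elim0
      · exact k.elim0
    refine ⟨LinearEquiv.ofInjectiveOfFinrankEq L hinj (by simp [hV]), fun w => ?_⟩
    show Q (w (Sum.inl ()) • v) = _
    rw [Qsmul, oddC_apply, Finset.univ_eq_empty, Finset.sum_empty, add_zero]
    ring
  | succ m ih =>
    intro V _ _ _ Q hQ hV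
    obtain ⟨u, hu0, hu⟩ := exists_isotropic Q (by omega)
    obtain ⟨W, hWn, hW, he⟩ := exists_split Q hQ hu0 hu
    obtain ⟨h2, c, hc, h⟩ := ih _ hWn (by omega)
    exact ⟨h2, c, hc, he.trans ((equiv_ext h).trans (equiv_ext_oddC _ _))⟩

end CfsgLib.QuadClass
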